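import Cfsg.Agent.H895.IF.CoChk
import Cfsg.Agent.H763.Co3.Fin
import Cfsg.Agent.KFacts.Co3.Out
import Cfsg.Agent.H209.IF.Row

/-!
# S5719, row `Co3` (helper895)

`row_co3 : Row fun T => Spor.IsoCo3 T`.

Classes of involutions: `2A` (table `p40`, fixed points, class 170775), `2B` (table `p17`, no fixed points, 2608200).
* `finA` : `t₀ ∈ A` of type 2A with `f(t₀) ≤ 4`: the elements of order 5 of `C(t₀)` are in `A`, hence `t₂` (2A, 274 conjugates
  under `C(t₀)`), `f(t₂) ≤ 4`, the elements of order 7 of `C(t₂)` are in `A`, and `A` contains 936 conjugates of `t₀`.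
* `twoA` : `f(t₀) ≤ 11`, a subgroup `R0 ≤ C(t₀)` of order 16 without `t₀`.
* `twoB` : `f(t₁) ≤ 19`, `W1 ≤ C(t₁)` of order 32, then `W2` of order 16 with all involutions 2A.
-/

set_option autoImplicit false
set_option maxRecDepth 1000000
set_option exponentiation.threshold 6000

namespace Cfsg.Agent.H895.CoIF

open Equiv Subgroup Cfsg Cfsg.Agent.H123.Cls Cfsg.Agent.H895.IFT Cfsg.Agent.H763.Co3.Dat Cfsg.Agent.H209.Fxy
open Cfsg.Agent.H763.Co3.Model (N A2 A_conj A_le card_A card_N N_le_A tabs_ok)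
open Cfsg.Agent.H763.Co3.Fin (D_ok D_nodup D_sum cov eN)

/-! ### class sizes -/

theorem card_cls {n : ℕ} {A : Subgroup (Perm (Fin n))} (r : Perm (Fin n)) :
    Nat.card A = Nat.card ↥(A ⊓ Subgroup.centralizer {r}) * (cls A r).ncard := by
  let C : Subgroup A := (A ⊓ Subgroup.centralizer {r}).subgroupOf A
  have e1 : Nat.card C = Nat.card ↥(A ⊓ Subgroup.centralizer {r}) :=
    Nat.card_congr (Subgroup.subgroupOfEquivOfLe inf_le_left).toEquiv
  have e2 : Nat.card (A ⧸ C) = (cls A r).ncard := by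
    rw [← Nat.card_coe_set_eq]
    refine Nat.card_congr (Equiv.ofBijective (fun q : A ⧸ C => Quotient.liftOn' q
      (fun a => (⟨(a : Perm (Fin n)) * r * (a : Perm (Fin n))⁻¹, a, a.2, rfl⟩ : cls A r)) ?_) ⟨?_, ?_⟩)
    · intro a b hab
      rw [QuotientGroup.leftRel_apply] at hab
      have h2 := (Subgroup.mem_inf.1 (Subgroup.mem_subgroupOf.1 hab)).2
      rw [Subgroup.mem_centralizer_singleton_iff] at h2
      apply Subtype.ext
      change ((a : Perm (Fin n))⁻¹ * b) * r = r * ((a : Perm (Fin n))⁻¹ * b) at h2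
      change (a : Perm (Fin n)) * r * (a : Perm (Fin n))⁻¹ = b * r * (b : Perm (Fin n))⁻¹
      calc (a : Perm (Fin n)) * r * (a : Perm (Fin n))⁻¹ =
          a * (r * ((a : Perm (Fin n))⁻¹ * b)) * (b : Perm (Fin n))⁻¹ := by group
        _ = a * ((a : Perm (Fin n))⁻¹ * b * r) * (b : Perm (Fin n))⁻¹ := by rw [h2]
        _ = b * r * (b : Perm (Fin n))⁻¹ := by group
    · intro q q' h
      induction q using Quotient.inductionOn' with
      | h a =>
        induction q' using Quotient.inductionOn' with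
        | h b =>
          have h2 : (a : Perm (Fin n)) * r * (a : Perm (Fin n))⁻¹ = b * r * (b : Perm (Fin n))⁻¹ :=
            congrArg Subtype.val h
          refine Quotient.sound' ?_
          rw [QuotientGroup.leftRel_apply]
          refine Subgroup.mem_subgroupOf.2 (Subgroup.mem_inf.2 ⟨(a⁻¹ * b).2, ?_⟩)
          rw [Subgroup.mem_centralizer_singleton_iff]
          change ((a : Perm (Fin n))⁻¹ * b) * r = r * ((a : Perm (Fin n))⁻¹ * b)
          calc ((a : Perm (Fin n))⁻¹ * b) * r =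
              (a : Perm (Fin n))⁻¹ * (b * r * (b : Perm (Fin n))⁻¹) * b := by group
            _ = (a : Perm (Fin n))⁻¹ * (a * r * (a : Perm (Fin n))⁻¹) * b := by rw [h2]
            _ = r * ((a : Perm (Fin n))⁻¹ * b) := by group
    · rintro ⟨x, a, ha, rfl⟩
      exact ⟨Quotient.mk'' ⟨a, ha⟩, rfl⟩
  rw [← e1, ← e2, mul_comm]
  exact Subgroup.card_eq_card_quotient_mul_card_subgroup C

/-- Exactness with a lower bound `a` of `|A|` and an invariant `J`. -/
theorem cls_exact_J {n K w : ℕ} {row : ℕ → ℕ} {A N : Subgroup (Perm (Fin n))} (hn : n ≤ 2 ^ K) (hA : A ≤ Cfsg.Agent.Lib.BitNet.Aut n row)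
    (hnA : ∀ a ∈ A, ∀ x ∈ N, a * x * a⁻¹ ∈ N) {a : ℕ} (haA : a ≤ Nat.card A) (D : List (ℕ × ℕ × List ℕ))
    (hr : ∀ x ∈ D, ∃ g ∈ N, ∀ p : Fin n, (g p : ℕ) = lk w x.1 p)
    (hc : ∀ x ∈ D, ∃ l L, chkB n K row w x.1 l L x.2.1 = true)
    (J : Perm (Fin n) → List ℕ) (hJ : ∀ b ∈ A, ∀ r, J (b * r * b⁻¹) = J r)
    (hs : ∀ x ∈ D, ∀ r : Perm (Fin n), (∀ p : Fin n, (r p : ℕ) = lk w x.1 p) → J r = x.2.2)
    (hnd : (D.map fun x => x.2.2).Nodup)
    (hsum : Nat.card N ≤ (D.map fun x => a / (x.2.1 + 1)).sum) {x : ℕ × ℕ × List ℕ} (hx : x ∈ D)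
    {g : Perm (Fin n)} (hg : ∀ p : Fin n, (g p : ℕ) = lk w x.1 p) : (cls A g).ncard ≤ a / (x.2.1 + 1) := by
  classical
  have hmem : ∀ i : Fin D.length, D[i.1] ∈ D := fun i => List.getElem_mem i.2
  have hinj : Function.Injective (fun i : Fin D.length => (D[i.1]).2.2) := by
    intro i j hij
    have h1 := (List.nodup_iff_injective_get.1 hnd)
    have h2 : (⟨i.1, by rw [List.length_map]; exact i.2⟩ : Fin (D.map fun x => x.2.2).length) =
        ⟨j.1, by rw [List.length_map]; exact j.2⟩ := by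
      apply h1
      simpa using hij
    have h3 := congrArg Fin.val h2
    exact Fin.ext h3
  have hr' : ∀ i : Fin D.length, ∃ g ∈ N, ∀ p : Fin n, (g p : ℕ) = lk w (D[i.1]).1 p := fun i => hr _ (hmem i)
  choose r hrN hrp using hr'
  have hq : ∀ i : Fin D.length, a / ((D[i.1]).2.1 + 1) ≤ (cls A (r i)).ncard := by
    intro i
    have h1 := card_cls (A := A) (r i)
    have h0 : 0 < Nat.card ↥(A ⊓ Subgroup.centralizer {r i}) := Nat.card_pos
    have h2 : Nat.card ↥(A ⊓ Subgroup.centralizer {r i}) ≤ (D[i.1]).2.1 + 1 := by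
      obtain ⟨l, L, h1⟩ := hc _ (hmem i)
      refine card_le_bound hn (hrp i) h1 (inf_le_left.trans hA) fun σ hσ p => ?_
      have h2 := Subgroup.mem_centralizer_singleton_iff.1 (Subgroup.mem_inf.1 hσ).2
      exact congrArg (fun τ : Perm (Fin n) => τ p) h2
    calc a / ((D[i.1]).2.1 + 1) ≤ Nat.card A / ((D[i.1]).2.1 + 1) := Nat.div_le_div_right haA
      _ ≤ Nat.card A / Nat.card ↥(A ⊓ Subgroup.centralizer {r i}) := Nat.div_le_div_left h2 h0
      _ = (cls A (r i)).ncard := by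
        rw [h1, Nat.mul_div_cancel_left _ h0]
  have hdis : Set.PairwiseDisjoint (Set.univ : Set (Fin D.length)) (fun i => cls A (r i)) := by
    intro i _ j _ hij
    rw [Function.onFun, Set.disjoint_left]
    rintro x ⟨a, ha, rfl⟩ ⟨b, hb, h⟩
    apply hij
    apply hinj
    show (D[i.1]).2.2 = (D[j.1]).2.2
    rw [← hs _ (hmem i) _ (hrp i), ← hs _ (hmem j) _ (hrp j), ← hJ a ha (r i), h, hJ b hb]
  have hun : (⋃ i, cls A (r i)) ⊆ (N : Set (Perm (Fin n))) := by
    intro x hx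
    obtain ⟨i, a, ha, rfl⟩ := Set.mem_iUnion.1 hx
    exact hnA a ha _ (hrN i)
  have hcard : (⋃ i, cls A (r i)).ncard = ∑ i, (cls A (r i)).ncard := by
    have h := Set.ncard_iUnion_of_finite (s := fun i => cls A (r i)) (fun i => Set.toFinite _)
      (fun i j hij => hdis (Set.mem_univ i) (Set.mem_univ j) hij)
    rw [h, finsum_eq_sum_of_fintype]
  have hle : ∑ i, (cls A (r i)).ncard ≤ ∑ i : Fin D.length, a / ((D[i.1]).2.1 + 1) := by
    rw [← hcard, Fin.sum_univ_fun_getElem D (fun x => a / (x.2.1 + 1))]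
    exact (Set.ncard_le_ncard hun (Set.toFinite _)).trans hsum
  obtain ⟨i, hi, hix⟩ := List.getElem_of_mem hx
  have h2 : r ⟨i, hi⟩ = g := by
    ext p
    rw [hrp, hg]
    show lk w (D[i]).1 p = _
    rw [hix]
  rw [← h2]
  by_contra hlt
  rw [not_le] at hlt
  have h3 : D[(⟨i, hi⟩ : Fin D.length).1] = x := hix
  rw [← h3] at hlt
  have h1 : ∑ i : Fin D.length, a / ((D[i.1]).2.1 + 1) < ∑ i, (cls A (r i)).ncard :=
    Finset.sum_lt_sum (fun j _ => hq j) ⟨⟨i, hi⟩, Finset.mem_univ _, hlt⟩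
  omega

theorem cls_le {x : ℕ × ℕ × List ℕ} (hx : x ∈ D) {g : Perm (Fin 552)} (hg : ∀ p : Fin 552, (g p : ℕ) = lk 10 x.1 p) :
    (cls A2 g).ncard ≤ 2 * 495766656000 / (x.2.1 + 1) :=
  cls_exact_J (K := 10) (row := row) (by norm_num) A_le (fun _ ha _ hx => A_conj ha hx) card_A D
    (fun x hx => by
      obtain ⟨a, b, h⟩ := (D_ok x hx).cm
      obtain ⟨u, hu, v, hv, h1⟩ := exists_of_chkC tabs_ok h
      exact ⟨_, N.mul_mem (N.mul_mem (N.mul_mem hu hv) (N.inv_mem hu)) (N.inv_mem hv), h1⟩)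
    (fun x hx => (D_ok x hx).bd) (H763.Cls.Jx row key) (fun b hb r => H763.Cls.Jx_conj (A_le hb) r)
    (fun x hx r hr => by
      obtain ⟨c, cs, e, h1, h2, h3⟩ := (D_ok x hx).sg
      rw [e]
      exact H763.Cls.Jx_of (K := 10) (by norm_num) h1 h2 h3 hr)
    D_nodup (by rw [card_N]; exact Nat.le_of_ble_eq_true D_sum) hx hg

theorem mem40 : ((p40, 5806079, [11767680, 480, 72, 552]) : ℕ × ℕ × List ℕ) ∈ D := by
  unfold D
  iterate 40 refine List.mem_cons_of_mem _ ?_
  exact List.mem_cons_self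

theorem mem17 : ((p17, 380159, [3506976, 264, 0, 552]) : ℕ × ℕ × List ℕ) ∈ D := by
  unfold D
  iterate 17 refine List.mem_cons_of_mem _ ?_
  exact List.mem_cons_self

/-! ### involutions -/

/-- an involution has one of the tables `p40`, `p17`, the identity has `p1` -/
noncomputable def exc (P : ℕ) : Bool := cnd (Nat.beq P p40) true (cnd (Nat.beq P p17) true (cnd (Nat.beq P p1) true
  (List.rec false (fun b _ ih => cnd (Nat.beq (lk 10 P (lk 10 P b)) b) ih true) bs)))

theorem exc_D : List.rec (motive := fun _ => Bool) true (fun x _ ih => band (exc x.1) ih) D = true := by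
  unfold D
  decide +kernel

theorem p1_id : allN (fun p => Nat.beq (lk 10 p1 p) p) 552 = true := by decide +kernel

theorem exc_spec {x : ℕ × ℕ × List ℕ} (hx : x ∈ D) : exc x.1 = true := by
  have key : ∀ l : List (ℕ × ℕ × List ℕ), List.rec (motive := fun _ => Bool) true (fun x _ ih => band (exc x.1) ih) l = true →
      ∀ x ∈ l, exc x.1 = true := by
    intro l
    induction l with
    | nil => intro _ x hx; exact absurd hx List.not_mem_nil
    | cons y l ih =>
      intro h x hx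
      obtain ⟨h1, h2⟩ := band_true h
      rcases List.mem_cons.1 hx with rfl | hx
      · exact h1
      · exact ih h2 x hx
  exact key D exc_D x hx

theorem moved {P : ℕ} {r : Perm (Fin 552)} (hr : ∀ p : Fin 552, (r p : ℕ) = lk 10 P p) (h2 : r * r = 1) : ∀ l : List ℕ,
    (∀ b ∈ l, b < 552) → List.rec (motive := fun _ => Bool) false (fun b _ ih => cnd (Nat.beq (lk 10 P (lk 10 P b)) b) ih true) l = false
  | [], _ => rfl
  | b :: l, hb => by
    show cnd (Nat.beq (lk 10 P (lk 10 P b)) b) _ true = false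
    have h3 : lk 10 P (lk 10 P b) = b := by
      have h4 := hr ⟨b, hb b List.mem_cons_self⟩
      have h5 := hr (r ⟨b, hb b List.mem_cons_self⟩)
      rw [h4] at h5
      have h6 : r (r ⟨b, hb b List.mem_cons_self⟩) = ⟨b, hb b List.mem_cons_self⟩ := by
        rw [← Perm.mul_apply, h2]; rfl
      rw [h6] at h5
      exact h5.symm
    rw [h3, Nat.beq_refl, cnd_true]
    exact moved hr h2 l fun x hx => hb x (List.mem_cons_of_mem _ hx)

/-- the conjugation -/
theorem exists_aut {b : Perm (Fin 552)} (hb : b ∈ A2) :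
    ∃ α : N ≃* N, ∀ x : N, ((α x : N) : Perm (Fin 552)) = b * x * b⁻¹ := by
  refine ⟨⟨⟨fun x => ⟨b * x * b⁻¹, A_conj hb x.2⟩, fun x => ⟨b⁻¹ * x * b⁻¹⁻¹, A_conj (A2.inv_mem hb) x.2⟩,
    fun x => Subtype.ext ?_, fun x => Subtype.ext ?_⟩, fun x y => Subtype.ext ?_⟩, fun x => rfl⟩
  · show b⁻¹ * (b * (x : Perm (Fin 552)) * b⁻¹) * b⁻¹⁻¹ = x
    group
  · show b * (b⁻¹ * (x : Perm (Fin 552)) * b⁻¹⁻¹) * b⁻¹ = x
    group
  · show b * ((x : Perm (Fin 552)) * y) * b⁻¹ = b * x * b⁻¹ * (b * y * b⁻¹)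
    group

theorem inv_cases {s : N} (hs : orderOf s = 2) : ∃ b ∈ A2, ∃ r : N, (Tab N.subtype 10 r p40 ∨ Tab N.subtype 10 r p17) ∧
    (s : Perm (Fin 552)) = b * r * b⁻¹ := by
  obtain ⟨x, hx, r, hr, ht, b, hb, h⟩ := cov s s.2
  have hs2 : s * s = 1 := by rw [← pow_two, ← hs, pow_orderOf_eq_one]
  have hs1 : s ≠ 1 := by rintro rfl; rw [orderOf_one] at hs; omega
  have hr2 : r * r = 1 := by
    have h1 : (s : Perm (Fin 552)) * s = 1 := congrArg Subtype.val hs2
    rw [h] at h1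
    have h2 : b * r * b⁻¹ * (b * r * b⁻¹) = b * (r * r) * b⁻¹ := by group
    rw [h2] at h1
    have h3 : b⁻¹ * (b * (r * r) * b⁻¹) * b = r * r := by group
    rw [← h3, h1]
    group
  have h1 := exc_spec hx
  unfold exc at h1
  have h2 := moved ht hr2 bs (by
    intro b hb
    simp only [bs, List.mem_cons, List.not_mem_nil, or_false] at hb
    rcases hb with rfl | rfl | rfl | rfl | rfl | rfl <;> norm_num)
  rw [h2] at h1
  refine ⟨b, hb, ⟨r, hr⟩, ?_, h⟩
  by_cases h40 : x.1 = p40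
  · left; rw [← h40]; exact ht
  · by_cases h17 : x.1 = p17
    · right; rw [← h17]; exact ht
    · exfalso
      have e40 : Nat.beq x.1 p40 = false := by
        rw [← Bool.not_eq_true]; exact fun h => h40 (Nat.eq_of_beq_eq_true h)
      have e17 : Nat.beq x.1 p17 = false := by
        rw [← Bool.not_eq_true]; exact fun h => h17 (Nat.eq_of_beq_eq_true h)
      rw [e40, e17, cnd_false, cnd_false] at h1
      by_cases hp1 : x.1 = p1
      · have h3 : r = 1 := by
          ext p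
          rw [ht, hp1]
          exact Nat.eq_of_beq_eq_true ((allN_iff _ _).1 p1_id p p.2)
        apply hs1
        apply Subtype.ext
        rw [h, h3]
        show b * 1 * b⁻¹ = 1
        group
      · have e1 : Nat.beq x.1 p1 = false := by
          rw [← Bool.not_eq_true]; exact fun h => hp1 (Nat.eq_of_beq_eq_true h)
        rw [e1, cnd_false] at h1
        exact Bool.noConfusion h1

/-- an involution with a fixed point -/
theorem inv_A {s : N} (hs : orderOf s = 2) {p : Fin 552} (hp : (s : Perm (Fin 552)) p = p) : ∃ b ∈ A2, ∃ r : N,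
    Tab N.subtype 10 r p40 ∧ (s : Perm (Fin 552)) = b * r * b⁻¹ := by
  obtain ⟨b, hb, r, h1 | h1, h2⟩ := inv_cases hs
  · exact ⟨b, hb, r, h1, h2⟩
  · exfalso
    have h3 : (r : Perm (Fin 552)) (b⁻¹ p) = b⁻¹ p := by
      have h4 : (r : Perm (Fin 552)) = b⁻¹ * s * b := by rw [h2]; group
      rw [h4, Perm.mul_apply, Perm.mul_apply]
      have h5 : b (b⁻¹ p) = p := Equiv.apply_symm_apply b p
      rw [h5, hp]
    have h4 := (allN_iff _ _).1 nofix (b⁻¹ p) (b⁻¹ p).2
    have h5 := h1 (b⁻¹ p)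
    have h6 : ((N.subtype r : Perm (Fin 552)) (b⁻¹ p) : ℕ) = (b⁻¹ p : Fin 552) := congrArg Fin.val h3
    rw [h6] at h5
    rw [← h5, Nat.beq_refl] at h4
    exact Bool.noConfusion h4

theorem hψ : Function.Injective N.subtype := N.subtype_injective

theorem index_A {s : N} {b : Perm (Fin 552)} (hb : b ∈ A2) {r : N} (hr : Tab N.subtype 10 r p40)
    (h : (s : Perm (Fin 552)) = b * r * b⁻¹) : (centralizer ({s} : Set N)).index ≤ 170775 := by
  refine index_le_of_cls hψ (A := A2) (by rw [N.range_subtype]; exact N_le_A) ?_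
  have h1 : N.subtype s = b * r * b⁻¹ := h
  rw [h1, cls_conj hb]
  exact (cls_le mem40 hr).trans (by norm_num)

theorem index_B {s : N} {b : Perm (Fin 552)} (hb : b ∈ A2) {r : N} (hr : Tab N.subtype 10 r p17)
    (h : (s : Perm (Fin 552)) = b * r * b⁻¹) : (centralizer ({s} : Set N)).index ≤ 2608200 := by
  refine index_le_of_cls hψ (A := A2) (by rw [N.range_subtype]; exact N_le_A) ?_
  have h1 : N.subtype s = b * r * b⁻¹ := h
  rw [h1, cls_conj hb]
  exact (cls_le mem17 hr).trans (by norm_num)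

/-! ### letters -/

theorem letters {Dt Di : List ℕ} (h : ∀ P ∈ Dt, Has P) (h' : ∀ P ∈ Di, Has P) (hlen : Di.length = Dt.length)
    (hc : allN (fun i => chkI 552 10 (nth Dt i) (nth Di i)) Dt.length = true) :
    ∃ d : ℕ → N, (∀ i < Dt.length, Tab N.subtype 10 (d i) (nth Dt i)) ∧
      (∀ i < Dt.length, Tab N.subtype 10 (d i)⁻¹ (nth Di i)) := by
  obtain ⟨d, hd⟩ := choose_of h
  obtain ⟨d', hd'⟩ := choose_of h'
  refine ⟨d, hd, fun i hi => ?_⟩
  have h1 := mul_eq_one hψ (hd i hi) (hd' i (by rw [hlen]; exact hi)) ((allN_iff _ _).1 hc i hi)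
  rw [inv_eq_of_mul_eq_one_right h1]
  exact hd' i (by rw [hlen]; exact hi)

theorem pow_of {x : N} {P k : ℕ} (hx : Tab N.subtype 10 x P) (h : chkP P k = true) : x ^ k = 1 := by
  apply Subtype.ext
  ext p
  have h1 := Nat.eq_of_beq_eq_true ((allN_iff _ _).1 h p p.2)
  rw [it_eq (r := (x : Perm (Fin 552))) hx] at h1
  exact h1

theorem comm_all {Dt : List ℕ} {d : ℕ → N} {k : ℕ} (hd : ∀ i < k, Tab N.subtype 10 (d i) (nth Dt i)) {t : N} {P : ℕ}
    (ht : Tab N.subtype 10 t P) (h : allN (fun i => chkM 552 10 (nth Dt i) P) k = true) :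
    ∀ x ∈ closure {y : N | ∃ i < k, y = d i}, x * t = t * x := by
  intro x hx
  have h1 : closure {y : N | ∃ i < k, y = d i} ≤ centralizer {t} := by
    rw [closure_le]
    rintro _ ⟨i, hi, rfl⟩
    show d i ∈ centralizer {t}
    rw [mem_centralizer_singleton_iff]
    exact comm_of hψ (hd i hi) ht ((allN_iff _ _).1 h i hi)
  exact mem_centralizer_singleton_iff.1 (h1 hx)

theorem ord_of {t : N} {P : ℕ} (ht : Tab N.subtype 10 t P) (h : chkI 552 10 P P = true)
    (h' : ∃ b : Fin 552, Nat.beq (lk 10 P b) b = false) : orderOf t = 2 := by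
  obtain ⟨b, hb⟩ := h'
  exact orderOf_two (mul_eq_one hψ ht ht h) (ne_one_of ht b hb)

theorem ne_of_NI {P : ℕ} (h : NI P) {y : N} (hy : Tab N.subtype 10 y P) (h2 : y * y = 1) : False := by
  obtain ⟨b, hb⟩ := h
  obtain ⟨h3, h4⟩ := band_true hb
  rw [Nat.blt_eq] at h3
  have h5 := hy ⟨b, h3⟩
  have h6 := hy (N.subtype y ⟨b, h3⟩)
  rw [h5] at h6
  have h7 : N.subtype y (N.subtype y ⟨b, h3⟩) = ⟨b, h3⟩ := by
    rw [← Perm.mul_apply, ← map_mul, h2]; rfl
  rw [h7] at h6
  have h8 : lk 10 P (lk 10 P b) = b := h6.symm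
  rw [h8, Nat.beq_refl] at h4
  exact absurd h4 (by decide)

theorem fix_of_FP {P : ℕ} (h : FP P) {y : N} (hy : Tab N.subtype 10 y P) :
    ∃ p : Fin 552, (y : Perm (Fin 552)) p = p := by
  obtain ⟨b, hb⟩ := h
  obtain ⟨h3, h4⟩ := band_true hb
  rw [Nat.blt_eq] at h3
  refine ⟨⟨b, h3⟩, Fin.ext ?_⟩
  exact (hy ⟨b, h3⟩).trans (Nat.eq_of_beq_eq_true h4)

/-- transport to the representative -/
theorem transport {A : Subgroup N} {Γ : Subgroup (MulAut N)} (h : IF A Γ) {s : N} (hs : s ∈ A) {b : Perm (Fin 552)} (hb : b ∈ A2) {r : N}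
    (hbr : (s : Perm (Fin 552)) = b * r * b⁻¹) : ∃ (A' : Subgroup N) (Γ' : Subgroup (MulAut N)), IF A' Γ' ∧ r ∈ A' := by
  obtain ⟨α, hα⟩ := exists_aut (A2.inv_mem hb)
  have h1 : α s = r := by
    apply Subtype.ext
    rw [hα, hbr]
    group
  obtain ⟨A', Γ', h2, h3, -⟩ := map_aut h α hs h1
  exact ⟨A', Γ', h2, h3⟩

section

variable [IsSimpleGroup N] (hna : ∃ a b : N, a * b ≠ b * a) {A : Subgroup N} {Γ : Subgroup (MulAut N)}

include hna

theorem finA (h : IF A Γ) {t : N} (hT : Tab N.subtype 10 t p40) (ht : t ∈ A) (hf : fx A (MulAut.conj t) ≤ 4) : False := by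
  have ht2 : orderOf t = 2 := ord_of hT pp0 ⟨7, by decide +kernel⟩
  obtain ⟨d, hd, hi⟩ := letters hZt hZi rfl iZ
  change ∀ i < 8, _ at hd
  change ∀ i < 8, _ at hi
  have hYt : ∀ i < 6, nth Zt i = nth Yt i := by
    intro i hi
    interval_cases i <;> rfl
  have hYi : ∀ i < 6, nth Zi i = nth Yi i := by
    intro i hi
    interval_cases i <;> rfl
  have hdY : ∀ i < 6, Tab N.subtype 10 (d i) (nth Yt i) := fun i h => by rw [← hYt i h]; exact hd i (by omega)
  have hiY : ∀ i < 6, Tab N.subtype 10 (d i)⁻¹ (nth Yi i) := fun i h => by rw [← hYi i h]; exact hi i (by omega)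
  -- the elements of order 5
  have hcY := comm_all hdY hT mY
  have hmem : ∀ i < 6, d i ∈ closure {y : N | ∃ i < 6, y = d i} := fun i h => subset_closure ⟨i, h, rfl⟩
  have hA5 : ∀ i < 6, d i ∈ A := fun i h6 => mem_of_prime h hna ht ht2 (hcY _ (hmem i h6)) Nat.prime_five
    (pow_of (hdY i h6) ((allN_iff _ _).1 pY i h6)) (by omega)
  have hAY : closure {y : N | ∃ i < 6, y = d i} ≤ A := by
    rw [closure_le]
    rintro _ ⟨i, h6, rfl⟩
    exact hA5 i h6
  -- `t₂`
  have hT2 : Tab N.subtype 10 (wd d ([1, 5, 1, 5, 1, 5] : List ℕ)) e35 := tab_wd (tabs := Yt) hdY w2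
  set t2 := wd d ([1, 5, 1, 5, 1, 5] : List ℕ) with ht2def
  have h2A : t2 ∈ A := by
    refine hAY (wd_mem _ ?_)
    exact chkL_iff _ _ (band_true w2).1
  have ho2 : orderOf t2 = 2 := ord_of hT2 pp2 ⟨0, by decide +kernel⟩
  obtain ⟨b, hb, r, hr, hbr⟩ := inv_A ho2 (p := (10 : Fin 552)) (by
    apply Fin.ext
    have := hT2 (10 : Fin 552)
    exact this.trans (Nat.eq_of_beq_eq_true f2))
  have hK : 274 ≤ (cls (closure {y : N | ∃ i < 6, y = d i}) t2).ncard := by
    have h1 := orb_le (D := closure {y : N | ∃ i < 6, y = d i}) (m := 6) (by norm_num) hmem hdY hiY hT2 oT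
    rwa [lT] at h1
  have hE := E4c h hna h2A ht ho2 ht2 hcY hK (index_A hb hr hbr)
  have hf2 : fx A (MulAut.conj t2) ≤ 4 := by
    by_contra hcon
    rw [not_le] at hcon
    have h1 : 5 ^ 4 ≤ fx A (MulAut.conj t2) ^ 4 := Nat.pow_le_pow_left hcon 4
    have := hE.2
    omega
  -- the elements of order 7
  have hA7 : ∀ i, i = 6 ∨ i = 7 → d i ∈ A := by
    rintro i (rfl | rfl)
    · exact mem_of_prime h hna h2A ho2 (comm_of hψ (hd 6 (by norm_num)) hT2 mz) (by norm_num : Nat.Prime 7)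
        (pow_of (hd 6 (by norm_num)) pz) (by omega)
    · exact mem_of_prime h hna h2A ho2 (comm_of hψ (hd 7 (by norm_num)) hT2 mz') (by norm_num : Nat.Prime 7)
        (pow_of (hd 7 (by norm_num)) pz') (by omega)
  have hA8 : ∀ i < 8, d i ∈ A := by
    intro i h8
    rcases lt_or_ge i 6 with h6 | h6
    · exact hA5 i h6
    · exact hA7 i (by omega)
  have hAZ : closure {y : N | ∃ i < 8, y = d i} ≤ A := by
    rw [closure_le]
    rintro _ ⟨i, h6, rfl⟩
    exact hA8 i h6
  have hKF : 936 ≤ (cls (closure {y : N | ∃ i < 8, y = d i}) t).ncard := by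
    have h1 := orb_le (D := closure {y : N | ∃ i < 8, y = d i}) (m := 8) (by norm_num)
      (fun i h => subset_closure ⟨i, h, rfl⟩) hd hi hT oF
    rwa [lF] at h1
  exact fin_kill h hna ht ht2 hAZ hf hKF (index_A (A2.one_mem) hT (by group)) (by norm_num)

theorem twoA (h : IF A Γ) {t : N} (hT : Tab N.subtype 10 t p40) (ht : t ∈ A) : False := by
  have ht2 : orderOf t = 2 := ord_of hT pp0 ⟨7, by decide +kernel⟩
  have hidx : (centralizer ({t} : Set N)).index ≤ 170775 := index_A (A2.one_mem) hT (by group)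
  have hf := f_lt h hna ht ht2 hidx
  have hf11 : fx A (MulAut.conj t) ≤ 11 := by
    by_contra hcon
    rw [not_le] at hcon
    have h1 : 12 ^ 5 ≤ fx A (MulAut.conj t) ^ 5 := Nat.pow_le_pow_left hcon 5
    omega
  obtain ⟨g, hg⟩ := choose_of hGR0
  have hW := comm_all (k := 2) hg hT mGR0
  have hcov : ∀ x ∈ closure {y : N | ∃ i < 2, y = g i}, _ := fun x hx => grp_cov hψ hg QR0 NR0 hx
  have hcard : 16 ≤ Nat.card (closure {y : N | ∃ i < 2, y = g i}) := by
    have h1 := card_ge hg QR0 (bs := [0, 1]) rfl kGR0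
    rwa [lGR0] at h1
  obtain ⟨y, hyW, hyA, hy1, hy2⟩ := exists_inv h hna ht ht2 hW (fun x hx => by
    obtain ⟨a, -, -, -, h4⟩ := hcov x hx
    exact h4) hcard (by omega)
  have hyo := orderOf_two hy2 hy1
  obtain ⟨a, ha, hya, hTa, -⟩ := hcov y hyW
  rcases CR0 a ha with h1 | h1 | h1
  · rw [h1] at hya
    exact hy1 hya
  · exact ne_of_NI h1 hTa hy2
  · obtain ⟨f, c, hc⟩ := h1
    obtain ⟨d, hd, hi⟩ := letters hYt hYi rfl iY
    change ∀ i < 6, _ at hd
    change ∀ i < 6, _ at hi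
    obtain ⟨s, hs⟩ := hs1
    have hcY := comm_all hd hT mY
    have hmem : ∀ i < 6, d i ∈ closure {y : N | ∃ i < 6, y = d i} := fun i h => subset_closure ⟨i, h, rfl⟩
    have hys := conj_of hψ (by norm_num) hd hi hs hTa hc
    have hK : 274 ≤ (cls (closure {y : N | ∃ i < 6, y = d i}) y).ncard := by
      have h1 := orb_le (D := closure {y : N | ∃ i < 6, y = d i}) (m := 6) (by norm_num) hmem hd hi hs oR
      rw [lR] at h1
      rw [hys, cls_conj (cu_mem (by norm_num) hmem f c)]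
      exact h1
    set u := cu 6 d f c with hu
    have hfix : (y : Perm (Fin 552)) ((u : Perm (Fin 552)) 0) = (u : Perm (Fin 552)) 0 := by
      have h3 : (s : Perm (Fin 552)) 0 = 0 := by
        apply Fin.ext
        exact (hs 0).trans (Nat.eq_of_beq_eq_true f1)
      rw [hys]
      show (u : Perm (Fin 552)) ((s : Perm (Fin 552)) (((u⁻¹ : N) : Perm (Fin 552)) ((u : Perm (Fin 552)) 0))) = _
      have h4 : ((u⁻¹ : N) : Perm (Fin 552)) ((u : Perm (Fin 552)) 0) = 0 := by
        show (u : Perm (Fin 552))⁻¹ ((u : Perm (Fin 552)) 0) = 0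
        exact Equiv.symm_apply_apply _ _
      rw [h4, h3]
    obtain ⟨b, hb, r, hr, hbr⟩ := inv_A hyo hfix
    have hE := E4c h hna hyA ht hyo ht2 hcY hK (index_A hb hr hbr)
    refine finA hna h hT ht ?_
    by_contra hcon
    rw [not_le] at hcon
    have h1 : 5 ^ 4 ≤ fx A (MulAut.conj t) ^ 4 := Nat.pow_le_pow_left hcon 4
    have := hE.1
    omega

theorem killA (h : IF A Γ) {s : N} (hs : s ∈ A) (ho : orderOf s = 2) {p : Fin 552}
    (hp : (s : Perm (Fin 552)) p = p) : False := by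
  obtain ⟨b, hb, r, hr, hbr⟩ := inv_A ho hp
  obtain ⟨A', Γ', h2, h3⟩ := transport h hs hb hbr
  exact twoA hna h2 hr h3

theorem twoB (h : IF A Γ) {t : N} (hT : Tab N.subtype 10 t p17) (ht : t ∈ A) : False := by
  have ht2 : orderOf t = 2 := ord_of hT pp1 ⟨0, by decide +kernel⟩
  have hidx : (centralizer ({t} : Set N)).index ≤ 2608200 := index_B (A2.one_mem) hT (by group)
  have hf := f_lt h hna ht ht2 hidx
  have hf19 : fx A (MulAut.conj t) ≤ 19 := by
    by_contra hcon
    rw [not_le] at hcon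
    have h1 : 20 ^ 5 ≤ fx A (MulAut.conj t) ^ 5 := Nat.pow_le_pow_left hcon 5
    omega
  obtain ⟨g, hg⟩ := choose_of hGW1
  have hW := comm_all (k := GW1.length) hg hT mGW1
  have hcov : ∀ x ∈ closure {y : N | ∃ i < GW1.length, y = g i}, _ := fun x hx => grp_cov hψ hg QW1 NW1 hx
  have hcard : 32 ≤ Nat.card (closure {y : N | ∃ i < GW1.length, y = g i}) := by
    have h1 := card_ge hg QW1 (bs := [0, 1]) rfl kGW1
    rwa [lGW1] at h1
  obtain ⟨y, hyW, hyA, hy1, hy2⟩ := exists_inv h hna ht ht2 hW (fun x hx => by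
    obtain ⟨a, -, -, -, h4⟩ := hcov x hx
    exact h4) hcard (by omega)
  have hyo := orderOf_two hy2 hy1
  obtain ⟨a, ha, hya, hTa, -⟩ := hcov y hyW
  rcases CW1 a ha with h1 | h1 | h1 | h1
  · rw [h1] at hya
    exact hy1 hya
  · exact ne_of_NI h1 hTa hy2
  · obtain ⟨p, hp⟩ := fix_of_FP h1 hTa
    exact killA hna h hyA hyo hp
  · obtain ⟨f, c, hc⟩ := h1
    obtain ⟨d, hd, hi⟩ := letters hMt hMi rfl iM
    change ∀ i < 4, _ at hd
    change ∀ i < 4, _ at hi
    obtain ⟨s, hs⟩ := hs2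
    have hcY := comm_all hd hT mM
    have hmem : ∀ i < 4, d i ∈ closure {y : N | ∃ i < 4, y = d i} := fun i h => subset_closure ⟨i, h, rfl⟩
    have hys := conj_of hψ (by norm_num) hd hi hs hTa hc
    have hK : 274 ≤ (cls (closure {y : N | ∃ i < 4, y = d i}) y).ncard := by
      have h1 := orb_le (D := closure {y : N | ∃ i < 4, y = d i}) (m := 4) (by norm_num) hmem hd hi hs oW
      rw [lW] at h1
      rw [hys, cls_conj (cu_mem (by norm_num) hmem f c)]
      exact h1
    have hyi : (centralizer ({y} : Set N)).index ≤ 2608200 := by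
      obtain ⟨b, hb, r, hr | hr, hbr⟩ := inv_cases hyo
      · exact (index_A hb hr hbr).trans (by norm_num)
      · exact index_B hb hr hbr
    have hE := (E4c h hna hyA ht hyo ht2 hcY hK hyi).1
    have hf9 : fx A (MulAut.conj t) ≤ 9 := by
      by_contra hcon
      rw [not_le] at hcon
      have h1 : 10 ^ 4 ≤ fx A (MulAut.conj t) ^ 4 := Nat.pow_le_pow_left hcon 4
      omega
    -- the second group
    obtain ⟨g', hg'⟩ := choose_of hGW2
    have hW' := comm_all (k := GW2.length) hg' hT mGW2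
    have hcov' : ∀ x ∈ closure {y : N | ∃ i < GW2.length, y = g' i}, _ := fun x hx => grp_cov hψ hg' QW2 NW2 hx
    have hcard' : 16 ≤ Nat.card (closure {y : N | ∃ i < GW2.length, y = g' i}) := by
      have h1 := card_ge hg' QW2 (bs := [0]) rfl kGW2
      rwa [lGW2] at h1
    obtain ⟨z, hzW, hzA, hz1, hz2⟩ := exists_inv h hna ht ht2 hW' (fun x hx => by
      obtain ⟨a, -, -, -, h4⟩ := hcov' x hx
      exact h4) hcard' (by omega)
    obtain ⟨a', ha', hza, hTz, -⟩ := hcov' z hzW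
    rcases CW2 a' ha' with h1 | h1 | h1
    · rw [h1] at hza
      exact hz1 hza
    · exact ne_of_NI h1 hTz hz2
    · obtain ⟨p, hp⟩ := fix_of_FP h1 hTz
      exact killA hna h hzA (orderOf_two hz2 hz1) hp

theorem killE_N (h : IF A Γ) {s : N} (hs : s ∈ A) (ho : orderOf s = 2) : False := by
  obtain ⟨b, hb, r, hr | hr, hbr⟩ := inv_cases ho
  · obtain ⟨A', Γ', h2, h3⟩ := transport h hs hb hbr
    exact twoA hna h2 hr h3
  · obtain ⟨A', Γ', h2, h3⟩ := transport h hs hb hbr
    exact twoB hna h2 hr h3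

end

/-- all automorphisms are inner -/
theorem inner_N (a : MulAut N) : ∃ x : N, a = MulAut.conj x := by
  let e : N ≃* SporRec.Co3.Chain.G3 := eN.symm.trans SporRec.Co3.Model.equivCo3.symm
  obtain ⟨g, hg⟩ := KFacts.Co3.Out.aut ((e.symm.trans a).trans e)
  refine ⟨e.symm g, ?_⟩
  ext1 x
  have h1 := hg (e x)
  have h2 : e (a (e.symm (e x))) = g * e x * g⁻¹ := h1
  rw [MulEquiv.symm_apply_apply] at h2
  have h3 := congrArg e.symm h2
  rw [MulEquiv.symm_apply_apply, map_mul, map_mul, map_inv, MulEquiv.symm_apply_apply] at h3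
  rw [h3, MulAut.conj_apply]

theorem kill_N [IsSimpleGroup N] (hna : ∃ a b : N, a * b ≠ b * a) : Kill N := by
  intro A Γ h
  obtain ⟨σ, hσ, ho, -⟩ := h.ex
  obtain ⟨a, rfl⟩ := inner_N σ
  have ha := (h.conj a).1 hσ
  rw [Cfsg.Agent.H999.IFB.orderOf_conj hna] at ho
  exact killE_N hna h ha ho

/-- **Row `Co3` of S5719.** -/
theorem row_co3 : Row fun T => Spor.IsoCo3 T := by
  rintro T _ _ _ hn ⟨e⟩ A Γ hA
  let e' : T ≃* N := e.trans eN
  have hs : IsSimpleGroup N := (MulEquiv.isSimpleGroup_congr e').1 inferInstance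
  have hna : ∃ a b : N, a * b ≠ b * a := by
    by_contra hcon
    push Not at hcon
    apply hn
    refine ⟨⟨fun a b => e'.injective ?_⟩⟩
    rw [map_mul, map_mul]
    exact hcon _ _
  exact Kill.congr e'.symm (kill_N hna) A Γ hA

end Cfsg.Agent.H895.CoIF
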