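import Cfsg.Agent.H809.IF.EngC
import Cfsg.Agent.H209.IF.Kill
import Cfsg.Agent.H123.Cls.Cover
import Mathlib.Algebra.Group.Pointwise.Set.Basic
import Mathlib.GroupTheory.GroupAction.Pointwise

/-!
# S5719: kernel certificates for the rows of groups given by permutation tables (helper895)

`Tab ψ w x P` : the permutation `ψ x` has the table `P` (`w` bits per entry).
* `tab_ev` : words; `tab_mul`, `tab_eq` : products and equality;
* `cj`, `cu` : conjugates `u s u⁻¹`, the code of `u` is a list of base 16 digits;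
* `orb_le` : a lower bound for the number of conjugates under a group `D` from the images of a few points;
* `grp_cov` : a subgroup given by the tables of its elements.
-/

set_option autoImplicit false
set_option linter.unusedSectionVars false

namespace Cfsg.Agent.H895.IFT

open Equiv Subgroup Cfsg.Agent.H123.Cls Cfsg.Agent.Lib.BitNet
open Cfsg.Agent.Lib.BitNetSimple (force force_eq)

section tab

variable {T : Type*} [Group T] {n : ℕ} {ψ : T →* Perm (Fin n)} {w : ℕ}

/-- the table of `x` -/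
def Tab (ψ : T →* Perm (Fin n)) (w : ℕ) (x : T) (P : ℕ) : Prop := ∀ p : Fin n, (ψ x p : ℕ) = lk w P p

theorem tab_eq (hψ : Function.Injective ψ) {x y : T} {P : ℕ} (hx : Tab ψ w x P) (hy : Tab ψ w y P) : x = y := by
  apply hψ
  ext p
  rw [hx, hy]

/-- `R` is the composite of `P` and `Q` -/
noncomputable def cmp (n w P Q R : ℕ) : Bool := allN (fun p => Nat.beq (lk w R p) (force (lk w Q p) fun q => lk w P q)) n

theorem tab_mul {x y : T} {P Q R : ℕ} (hx : Tab ψ w x P) (hy : Tab ψ w y Q) (h : cmp n w P Q R = true) :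
    Tab ψ w (x * y) R := by
  intro p
  have h1 := Nat.eq_of_beq_eq_true ((allN_iff _ _).1 h p p.2)
  rw [force_eq] at h1
  rw [h1, map_mul, Perm.mul_apply, hx, hy]

/-- the product of the letters of a word -/
def wd (g : ℕ → T) (l : List ℕ) : T := (l.map g).prod

theorem wd_cons (g : ℕ → T) (x : ℕ) (l : List ℕ) : wd g (x :: l) = g x * wd g l := by
  rw [wd, List.map_cons, List.prod_cons]; rfl

theorem tab_ev {g : ℕ → T} {tabs : List ℕ} (hg : ∀ i < tabs.length, Tab ψ w (g i) (nth tabs i)) :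
    ∀ l : List ℕ, (∀ x ∈ l, x < tabs.length) → ∀ p : Fin n, (ψ (wd g l) p : ℕ) = evw w tabs l p
  | [], _, p => by
    show (ψ 1 p : ℕ) = p
    rw [map_one]
    rfl
  | x :: l, h, p => by
    rw [wd_cons, map_mul, Perm.mul_apply, hg x (h x List.mem_cons_self), evw_cons,
      tab_ev hg l fun y hy => h y (List.mem_cons_of_mem _ hy)]

/-- a word with the table `P` -/
theorem tab_wd {g : ℕ → T} {tabs : List ℕ} (hg : ∀ i < tabs.length, Tab ψ w (g i) (nth tabs i)) {P : ℕ} {l : List ℕ}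
    (h : chkW n w tabs P l = true) : Tab ψ w (wd g l) P := by
  obtain ⟨h1, h2⟩ := band_true h
  intro p
  rw [tab_ev hg l (chkL_iff _ l h1)]
  exact (Nat.eq_of_beq_eq_true ((allN_iff _ _).1 h2 p p.2)).symm

/-- `P Q = 1` -/
noncomputable def chkI (n w P Q : ℕ) : Bool := allN (fun p => Nat.beq (force (lk w Q p) fun q => lk w P q) p) n

theorem mul_eq_one (hψ : Function.Injective ψ) {x y : T} {P Q : ℕ} (hx : Tab ψ w x P) (hy : Tab ψ w y Q)
    (h : chkI n w P Q = true) : x * y = 1 := by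
  apply hψ
  rw [map_one, map_mul]
  ext p
  have h1 := Nat.eq_of_beq_eq_true ((allN_iff _ _).1 h p p.2)
  rw [force_eq] at h1
  rw [Perm.mul_apply, hx, hy, h1]
  rfl

/-- `P` and `Q` commute -/
noncomputable def chkM (n w P Q : ℕ) : Bool :=
  allN (fun p => Nat.beq (force (lk w Q p) fun q => lk w P q) (force (lk w P p) fun q => lk w Q q)) n

theorem comm_of (hψ : Function.Injective ψ) {x y : T} {P Q : ℕ} (hx : Tab ψ w x P) (hy : Tab ψ w y Q)
    (h : chkM n w P Q = true) : x * y = y * x := by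
  apply hψ
  rw [map_mul, map_mul]
  ext p
  have h1 := Nat.eq_of_beq_eq_true ((allN_iff _ _).1 h p p.2)
  rw [force_eq, force_eq] at h1
  rw [Perm.mul_apply, Perm.mul_apply, hx, hy, h1, hy, hx]

/-- the point `b` is moved -/
theorem ne_one_of {x : T} {P : ℕ} (hx : Tab ψ w x P) (b : Fin n) (h : Nat.beq (lk w P b) b = false) : x ≠ 1 := by
  rintro rfl
  have h1 := hx b
  rw [map_one] at h1
  have h2 : ((1 : Perm (Fin n)) b : ℕ) = b := rfl
  rw [h2] at h1
  rw [← h1, Nat.beq_refl] at h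
  exact absurd h (by decide)

theorem orderOf_two {x : T} (h1 : x * x = 1) (h2 : x ≠ 1) : orderOf x = 2 :=
  orderOf_eq_prime (by rw [pow_two]; exact h1) h2

/-! ### codes -/

/-- the element of a code: digits `1..m` in base 16, the lowest digit is the outermost letter; digit `m` is the
letter `0` -/
def cu (m : ℕ) (d : ℕ → T) : ℕ → ℕ → T
  | 0, _ => 1
  | f + 1, c => if c = 0 then 1 else d (Nat.mod (Nat.land c 15) m) * cu m d f (Nat.shiftRight c 4)

/-- the value of `u s u⁻¹` at a point -/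
noncomputable def cj (w m : ℕ) (Dt Di : List ℕ) (S : ℕ) : ℕ → ℕ → ℕ → ℕ :=
  Nat.rec (fun _ p => lk w S p) (fun _ ih c p => cnd (Nat.beq c 0) (lk w S p)
    (force (Nat.mod (Nat.land c 15) m) fun i => force (lk w (nth Di i) p) fun q =>
      force (Nat.shiftRight c 4) fun c' => force (ih c' q) fun r => lk w (nth Dt i) r))

theorem cu_mem {D : Subgroup T} {m : ℕ} {d : ℕ → T} (hm : 0 < m) (hd : ∀ i < m, d i ∈ D) :
    ∀ f c : ℕ, cu m d f c ∈ D
  | 0, _ => D.one_mem
  | f + 1, c => by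
    rw [cu]
    split_ifs
    · exact D.one_mem
    · exact D.mul_mem (hd _ (Nat.mod_lt _ hm)) (cu_mem hm hd f _)

theorem cj_eq {m : ℕ} (hm : 0 < m) {d : ℕ → T} {Dt Di : List ℕ} (hd : ∀ i < m, Tab ψ w (d i) (nth Dt i))
    (hi : ∀ i < m, Tab ψ w (d i)⁻¹ (nth Di i)) {s : T} {S : ℕ} (hs : Tab ψ w s S) :
    ∀ (f c : ℕ) (p : Fin n), (ψ (cu m d f c * s * (cu m d f c)⁻¹) p : ℕ) = cj w m Dt Di S f c p
  | 0, c, p => by
    have e : cj w m Dt Di S 0 c p = lk w S p := rfl
    rw [e, cu, one_mul, inv_one, mul_one]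
    exact hs p
  | f + 1, c, p => by
    have e : cj w m Dt Di S (f + 1) c p = cnd (Nat.beq c 0) (lk w S p)
      (force (Nat.mod (Nat.land c 15) m) fun i => force (lk w (nth Di i) p) fun q =>
      force (Nat.shiftRight c 4) fun c' => force (cj w m Dt Di S f c' q) fun r => lk w (nth Dt i) r) := rfl
    rw [e, cu]
    rcases beq_zero_or c with ⟨hc, hc'⟩ | ⟨hc, hc'⟩
    · rw [hc, cnd_true, if_pos hc', one_mul, inv_one, mul_one]
      exact hs p
    · rw [hc, cnd_false, if_neg hc', force_eq, force_eq, force_eq, force_eq]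
      have hlt := Nat.mod_lt (Nat.land c 15) hm
      set i := Nat.mod (Nat.land c 15) m with hidef
      set c' := Nat.shiftRight c 4
      have h1 : d i * cu m d f c' * s * (d i * cu m d f c')⁻¹ = d i * (cu m d f c' * s * (cu m d f c')⁻¹) * (d i)⁻¹ := by
        group
      rw [h1, map_mul, map_mul, Perm.mul_apply, Perm.mul_apply, hd i hlt, cj_eq hm hd hi hs f c', hi i hlt]

/-- `u s u⁻¹` has the table `R` -/
noncomputable def chkJ (n w m : ℕ) (Dt Di : List ℕ) (S f c R : ℕ) : Bool :=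
  allN (fun p => Nat.beq (lk w R p) (cj w m Dt Di S f c p)) n

theorem conj_of (hψ : Function.Injective ψ) {m : ℕ} (hm : 0 < m) {d : ℕ → T} {Dt Di : List ℕ}
    (hd : ∀ i < m, Tab ψ w (d i) (nth Dt i)) (hi : ∀ i < m, Tab ψ w (d i)⁻¹ (nth Di i)) {s r : T} {S R f c : ℕ}
    (hs : Tab ψ w s S) (hr : Tab ψ w r R) (h : chkJ n w m Dt Di S f c R = true) :
    r = cu m d f c * s * (cu m d f c)⁻¹ := by
  apply hψ
  ext p
  rw [hr, cj_eq hm hd hi hs]
  exact Nat.eq_of_beq_eq_true ((allN_iff _ _).1 h p p.2)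

/-- the images of the points `bs`, packed -/
noncomputable def kj (w m : ℕ) (Dt Di : List ℕ) (S f c : ℕ) (bs : List ℕ) : ℕ :=
  List.rec 0 (fun b _ ih => force ih fun x => force (cj w m Dt Di S f c b) fun y =>
    Nat.lor (Nat.shiftLeft x w) y) bs

/-- increasing keys -/
noncomputable def incK (key : ℕ → ℕ) (l : List ℕ) : ℕ → Bool :=
  List.rec (fun _ => true) (fun c _ ih prev => force (key c) fun v => band (Nat.ble prev v) (ih (Nat.succ v))) l

theorem incK_nodup {key : ℕ → ℕ} : ∀ {l : List ℕ} {b : ℕ}, incK key l b = true →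
    (∀ x ∈ l, b ≤ key x) ∧ (l.map key).Nodup
  | [], _, _ => ⟨fun x hx => absurd hx List.not_mem_nil, List.nodup_nil⟩
  | c :: l, b, h => by
    have e : incK key (c :: l) b = force (key c) (fun v => band (Nat.ble b v) (incK key l (Nat.succ v))) := rfl
    rw [e, force_eq] at h
    obtain ⟨h1, h2⟩ := band_true h
    obtain ⟨h3, h4⟩ := incK_nodup h2
    have h1' : b ≤ key c := Nat.le_of_ble_eq_true h1
    refine ⟨?_, ?_⟩
    · intro x hx
      rcases List.mem_cons.1 hx with rfl | hx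
      · exact h1'
      · have := h3 x hx
        omega
    · rw [List.map_cons, List.nodup_cons]
      refine ⟨?_, h4⟩
      intro h5
      obtain ⟨x, hx, h6⟩ := List.mem_map.1 h5
      have := h3 x hx
      omega

theorem kj_eq {m : ℕ} (hm : 0 < m) {d : ℕ → T} {Dt Di : List ℕ} (hd : ∀ i < m, Tab ψ w (d i) (nth Dt i))
    (hi : ∀ i < m, Tab ψ w (d i)⁻¹ (nth Di i)) {s : T} {S : ℕ} (hs : Tab ψ w s S) {f c c' : ℕ}
    (h : cu m d f c * s * (cu m d f c)⁻¹ = cu m d f c' * s * (cu m d f c')⁻¹) :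
    ∀ bs : List ℕ, (∀ b ∈ bs, b < n) → kj w m Dt Di S f c bs = kj w m Dt Di S f c' bs
  | [], _ => rfl
  | b :: bs, hb => by
    have e : ∀ c, kj w m Dt Di S f c (b :: bs) = force (kj w m Dt Di S f c bs) fun x =>
      force (cj w m Dt Di S f c b) fun y => Nat.lor (Nat.shiftLeft x w) y := fun _ => rfl
    rw [e, e, force_eq, force_eq, force_eq, force_eq,
      kj_eq hm hd hi hs h bs fun x hx => hb x (List.mem_cons_of_mem _ hx)]
    have h1 := cj_eq hm hd hi hs f c ⟨b, hb b List.mem_cons_self⟩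
    have h2 := cj_eq hm hd hi hs f c' ⟨b, hb b List.mem_cons_self⟩
    rw [h] at h1
    rw [h1] at h2
    change cj w m Dt Di S f c b = cj w m Dt Di S f c' b at h2
    rw [h2]

theorem nodup_map_of {α β γ : Type*} {f : α → β} {g : α → γ} : ∀ {l : List α},
    (∀ x ∈ l, ∀ y ∈ l, g x = g y → f x = f y) → (l.map f).Nodup → (l.map g).Nodup
  | [], _, _ => List.nodup_nil
  | a :: l, h, hn => by
    rw [List.map_cons, List.nodup_cons] at hn ⊢
    refine ⟨fun hmem => hn.1 ?_, nodup_map_of (fun x hx y hy => h x (List.mem_cons_of_mem _ hx) y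
      (List.mem_cons_of_mem _ hy)) hn.2⟩
    obtain ⟨x, hx, he⟩ := List.mem_map.1 hmem
    exact List.mem_map.2 ⟨x, hx, h x (List.mem_cons_of_mem _ hx) a List.mem_cons_self he⟩

/-- the certificate of an orbit -/
noncomputable def chkO (n w m : ℕ) (Dt Di : List ℕ) (S f : ℕ) (bs cs : List ℕ) : Bool :=
  band (chkL n bs) (incK (fun c => kj w m Dt Di S f c bs) cs 0)

/-- the conjugates of `s` under `D` -/
def cls (D : Subgroup T) (s : T) : Set T := {x | ∃ u ∈ D, x = u * s * u⁻¹}

/-- **Lower bound of an orbit.** -/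
theorem orb_le [Finite T] {D : Subgroup T} {m : ℕ} (hm : 0 < m) {d : ℕ → T} (hD : ∀ i < m, d i ∈ D)
    {Dt Di : List ℕ} (hd : ∀ i < m, Tab ψ w (d i) (nth Dt i))
    (hi : ∀ i < m, Tab ψ w (d i)⁻¹ (nth Di i)) {s : T} {S : ℕ} (hs : Tab ψ w s S) {f : ℕ} {bs cs : List ℕ}
    (h : chkO n w m Dt Di S f bs cs = true) : cs.length ≤ (cls D s).ncard := by
  obtain ⟨h1, h2⟩ := band_true h
  obtain ⟨-, h3⟩ := incK_nodup h2
  have hbs := chkL_iff _ _ h1
  have h4 : (cs.map fun c => cu m d f c * s * (cu m d f c)⁻¹).Nodup := by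
    refine nodup_map_of ?_ h3
    · intro c _ c' _ hcc
      exact kj_eq hm hd hi hs hcc bs hbs
  classical
  have h5 : ((cs.map fun c => cu m d f c * s * (cu m d f c)⁻¹).toFinset : Set T) ⊆ cls D s := by
    intro x hx
    rw [Finset.mem_coe, List.mem_toFinset, List.mem_map] at hx
    obtain ⟨c, -, rfl⟩ := hx
    exact ⟨_, cu_mem hm hD f c, rfl⟩
  have h6 := Set.ncard_le_ncard h5 (Set.toFinite _)
  rwa [Set.ncard_coe_finset, List.toFinset_card_of_nodup h4, List.length_map] at h6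

/-! ### subgroups given by tables -/

/-- all indices below `r` -/
noncomputable def allI (t : ℕ → Bool) (r : ℕ) : Bool := allN t r

/-- the element with table `P`, word `l`, indices `mi` of the products with the generators -/
noncomputable def chkE (n w : ℕ) (gs tabs : List ℕ) (a : ℕ × List ℕ × List ℕ) : Bool :=
  band (chkW n w gs a.1 a.2.1) (band
    (allN (fun i => band (Nat.blt (nth a.2.2 i) tabs.length)
      (cmp n w (nth gs i) a.1 (nth tabs (nth a.2.2 i)))) gs.length)
    (allN (fun p => Nat.beq (force (lk w a.1 p) fun q => force (lk w a.1 q) fun q => force (lk w a.1 q) fun q =>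
      lk w a.1 q) p) n))

/-- **A subgroup given by the tables of its elements.** -/
theorem grp_cov [Finite T] (hψ : Function.Injective ψ) {g : ℕ → T} {gs : List ℕ}
    (hg : ∀ i < gs.length, Tab ψ w (g i) (nth gs i)) {L : List (ℕ × List ℕ × List ℕ)}
    (hL : ∀ a ∈ L, chkE n w gs (L.map fun a => a.1) a = true) (h1 : ∃ a ∈ L, a.2.1 = [])
    {x : T} (hx : x ∈ closure {y : T | ∃ i < gs.length, y = g i}) :
    ∃ a ∈ L, x = wd g a.2.1 ∧ Tab ψ w x a.1 ∧ x * x * x * x = 1 := by
  classical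
  set tabs := L.map fun a => a.1 with htabs
  have htab : ∀ a ∈ L, Tab ψ w (wd g a.2.1) a.1 := fun a ha => tab_wd hg (band_true (hL a ha)).1
  let R : Set T := {y | ∃ a ∈ L, y = wd g a.2.1}
  have hRf : R.Finite := Set.toFinite _
  have hstep : ∀ i < gs.length, ∀ y ∈ R, g i * y ∈ R := by
    rintro i hi _ ⟨a, ha, rfl⟩
    obtain ⟨h2, h3⟩ := band_true (band_true (hL a ha)).2
    obtain ⟨h4, h5⟩ := band_true ((allN_iff _ _).1 h2 i hi)
    rw [Nat.blt_eq] at h4
    have h6 := tab_mul (hg i hi) (htab a ha) h5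
    have h7 : nth tabs (nth a.2.2 i) ∈ tabs := by
      rw [nth_eq, List.getD_eq_getElem _ _ h4]
      exact List.getElem_mem _
    rw [htabs, List.mem_map] at h7
    obtain ⟨b, hb, h8⟩ := h7
    rw [← h8] at h6
    exact ⟨b, hb, tab_eq hψ h6 (htab b hb)⟩
  have hclo : ∀ y ∈ closure {y : T | ∃ i < gs.length, y = g i}, ∀ z ∈ R, y * z ∈ R := by
    intro y hy
    induction hy using Subgroup.closure_induction with
    | mem y hy =>
      obtain ⟨i, hi, rfl⟩ := hy
      exact hstep i hi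
    | one => intro z hz; rwa [one_mul]
    | mul a b _ _ iha ihb => intro z hz; rw [mul_assoc]; exact iha _ (ihb z hz)
    | inv a _ ih =>
      intro z hz
      have hsub : (fun z => a * z) '' R ⊆ R := by
        rintro _ ⟨y, hy, rfl⟩
        exact ih y hy
      have heq : (fun z => a * z) '' R = R := by
        refine Set.eq_of_subset_of_ncard_le hsub ?_ hRf
        rw [Set.ncard_image_of_injective _ (mul_right_injective a)]
      rw [← heq] at hz
      obtain ⟨y, hy, h⟩ := hz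
      have h' : a * y = z := h
      rw [← h', inv_mul_cancel_left]
      exact hy
  obtain ⟨a0, ha0, ha0'⟩ := h1
  have h2 : (1 : T) ∈ R := ⟨a0, ha0, by rw [ha0']; rfl⟩
  obtain ⟨a, ha, h3⟩ := hclo x hx 1 h2
  rw [mul_one] at h3
  have hxa : Tab ψ w x a.1 := by rw [h3]; exact htab a ha
  refine ⟨a, ha, h3, hxa, ?_⟩
  apply hψ
  ext p
  obtain ⟨-, h4⟩ := band_true (band_true (hL a ha)).2
  have h5 := Nat.eq_of_beq_eq_true ((allN_iff _ _).1 h4 p p.2)
  rw [force_eq, force_eq, force_eq] at h5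
  rw [map_mul, map_mul, map_mul, map_one, Perm.mul_apply, Perm.mul_apply, Perm.mul_apply, hxa, hxa, hxa, hxa, h5]
  rfl

/-- the images of the points `bs` -/
noncomputable def kt (w : ℕ) (bs : List ℕ) (P : ℕ) : ℕ :=
  List.rec 0 (fun b _ ih => force ih fun x => force (lk w P b) fun y => Nat.lor (Nat.shiftLeft x w) y) bs

theorem kt_eq {x y : T} {P Q : ℕ} (hx : Tab ψ w x P) (hy : Tab ψ w y Q) (h : x = y) :
    ∀ bs : List ℕ, (∀ b ∈ bs, b < n) → kt w bs P = kt w bs Q
  | [], _ => rfl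
  | b :: bs, hb => by
    have e : ∀ P, kt w (b :: bs) P = force (kt w bs P) fun x => force (lk w P b) fun y =>
      Nat.lor (Nat.shiftLeft x w) y := fun _ => rfl
    rw [e, e, force_eq, force_eq, force_eq, force_eq, kt_eq hx hy h bs fun x hx => hb x (List.mem_cons_of_mem _ hx)]
    have h1 := hx ⟨b, hb b List.mem_cons_self⟩
    have h2 := hy ⟨b, hb b List.mem_cons_self⟩
    rw [h] at h1
    rw [h1] at h2
    change lk w P b = lk w Q b at h2
    rw [h2]

theorem wd_mem {g : ℕ → T} {r : ℕ} : ∀ l : List ℕ, (∀ x ∈ l, x < r) →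
    wd g l ∈ closure {y : T | ∃ i < r, y = g i}
  | [], _ => one_mem _
  | x :: l, h => by
    rw [wd_cons]
    exact mul_mem (subset_closure ⟨x, h x List.mem_cons_self, rfl⟩) (wd_mem l fun y hy => h y (List.mem_cons_of_mem _ hy))

/-- **The order.** -/
theorem card_ge [Finite T] {g : ℕ → T} {gs : List ℕ} (hg : ∀ i < gs.length, Tab ψ w (g i) (nth gs i))
    {L : List (ℕ × List ℕ × List ℕ)} (hL : ∀ a ∈ L, chkE n w gs (L.map fun a => a.1) a = true) {bs : List ℕ}
    (hbs : chkL n bs = true) (hk : incK (kt w bs) (L.map fun a => a.1) 0 = true) :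
    L.length ≤ Nat.card (closure {y : T | ∃ i < gs.length, y = g i}) := by
  classical
  have hb := chkL_iff _ _ hbs
  have htab : ∀ a ∈ L, Tab ψ w (wd g a.2.1) a.1 := fun a ha => tab_wd hg (band_true (hL a ha)).1
  have h1 := (incK_nodup hk).2
  rw [List.map_map] at h1
  have h4 : (L.map fun a => wd g a.2.1).Nodup := nodup_map_of (fun a ha b hb' hab =>
    kt_eq (htab a ha) (htab b hb') hab bs hb) h1
  have h5 : ((L.map fun a => wd g a.2.1).toFinset : Set T) ⊆ (closure {y : T | ∃ i < gs.length, y = g i} : Subgroup T) := by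
    intro x hx
    rw [Finset.mem_coe, List.mem_toFinset, List.mem_map] at hx
    obtain ⟨a, ha, rfl⟩ := hx
    exact wd_mem _ (chkL_iff _ _ (band_true (band_true (hL a ha)).1).1)
  have h6 := Set.ncard_le_ncard h5 (Set.toFinite _)
  rwa [Set.ncard_coe_finset, List.toFinset_card_of_nodup h4, List.length_map] at h6

end tab

/-! ### the engine -/

section eng

open Cfsg.Agent.H209.Fxy Cfsg.Agent.H999.IFB Cfsg.Agent.H809.IFC

variable {T : Type*} [Group T] [Finite T] {A : Subgroup T} {Γ : Subgroup (MulAut T)}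

theorem conj_inj' [IsSimpleGroup T] (hna : ∃ a b : T, a * b ≠ b * a) :
    Function.Injective (MulAut.conj : T →* MulAut T) := by
  rw [injective_iff_map_eq_one]
  intro z hz
  apply center_of hna
  intro x
  have h3 := congrArg (fun τ : MulAut T => τ x) hz
  simp only [MulAut.conj_apply, MulAut.one_apply] at h3
  rwa [mul_inv_eq_iff_eq_mul] at h3

/-- ENG5 in terms of a lower bound for the number of conjugates. -/
theorem E4c [IsSimpleGroup T] (h : IF A Γ) (hna : ∃ a b : T, a * b ≠ b * a) {s t : T} (hs : s ∈ A) (ht : t ∈ A)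
    (hs2 : orderOf s = 2) (ht2 : orderOf t = 2) {D : Subgroup T} (hD : ∀ d ∈ D, d * t = t * d) {K N : ℕ}
    (hK : K ≤ (cls D s).ncard) (hN : (centralizer ({s} : Set T)).index ≤ N) :
    fx A (MulAut.conj t) ^ 4 * K < N ∧ fx A (MulAut.conj s) ^ 4 * K < N := by
  have h1 := IF.E4'' h ((h.conj s).2 hs) ((h.conj t).2 ht) (by rw [orderOf_conj hna, hs2])
    (by rw [orderOf_conj hna, ht2])
  rw [(IF.E2' h hna hs hs2).2.1] at h1
  have h2 : (MulAut.conj : T → MulAut T) '' cls D s ⊆ ccl (MulAut.conj s) (MulAut.conj t) := by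
    rintro _ ⟨_, ⟨u, hu, rfl⟩, rfl⟩
    refine ⟨u, ?_, ?_⟩
    · rw [MulAut.conj_apply, ← hD u hu, mul_inv_cancel_right]
    · rw [map_mul, map_mul, map_inv]
  have h3 : K ≤ (ccl (MulAut.conj s) (MulAut.conj t)).ncard := by
    calc K ≤ (cls D s).ncard := hK
      _ = ((MulAut.conj : T → MulAut T) '' cls D s).ncard := (Set.ncard_image_of_injective _ (conj_inj' hna)).symm
      _ ≤ _ := Set.ncard_le_ncard h2 (Set.toFinite _)
  exact ⟨(Nat.mul_le_mul_left _ h3).trans_lt (h1.2.2.1.trans_le hN), (Nat.mul_le_mul_left _ h3).trans_lt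
    (h1.2.2.2.trans_le hN)⟩

/-- the bound `f⁵ < |t^T|` -/
theorem f_lt [IsSimpleGroup T] (h : IF A Γ) (hna : ∃ a b : T, a * b ≠ b * a) {t : T} (ht : t ∈ A)
    (ht2 : orderOf t = 2) {N : ℕ} (hN : (centralizer ({t} : Set T)).index ≤ N) :
    fx A (MulAut.conj t) ^ 5 < N := ((IF.E2' h hna ht ht2).2.2.1).trans_le hN

theorem rel_le [IsSimpleGroup T] (h : IF A Γ) (hna : ∃ a b : T, a * b ≠ b * a) {t : T} (ht : t ∈ A)
    (ht2 : orderOf t = 2) {W : Subgroup T} (hW : ∀ d ∈ W, d * t = t * d) : A.relIndex W ≤ fx A (MulAut.conj t) := by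
  refine (Cfsg.Agent.H999.IFB.IF.E1 h ((h.conj t).2 ht) (by rw [orderOf_conj hna, ht2]) (B := W) fun b hb => ?_).1
  rw [MulAut.conj_apply, ← hW b hb, mul_inv_cancel_right]

/-- an involution of `A` in the 2-group `W` of exponent 4 -/
theorem exists_inv [IsSimpleGroup T] (h : IF A Γ) (hna : ∃ a b : T, a * b ≠ b * a) {t : T} (ht : t ∈ A)
    (ht2 : orderOf t = 2) {W : Subgroup T} (hW : ∀ d ∈ W, d * t = t * d) (h4 : ∀ x ∈ W, x * x * x * x = 1) {k : ℕ}
    (hk : k ≤ Nat.card W) (hf : fx A (MulAut.conj t) < k) : ∃ y ∈ W, y ∈ A ∧ y ≠ 1 ∧ y * y = 1 := by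
  have h1 := (rel_le h hna ht ht2 hW).trans_lt (hf.trans_le hk)
  have h2 : A ⊓ W ≠ ⊥ := by
    intro h3
    rw [← Subgroup.inf_relIndex_right, h3, Subgroup.relIndex_bot_left] at h1
    exact lt_irrefl _ h1
  obtain ⟨x, hx, hx1⟩ : ∃ x : T, x ∈ A ⊓ W ∧ x ≠ 1 := by
    by_contra hcon
    push Not at hcon
    exact h2 ((Subgroup.eq_bot_iff_forall _).2 hcon)
  by_cases h5 : (x : T) * x = 1
  · exact ⟨x, hx.2, hx.1, hx1, h5⟩
  · refine ⟨(x : T) * x, W.mul_mem hx.2 hx.2, A.mul_mem hx.1 hx.1, h5, ?_⟩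
    rw [← mul_assoc]
    exact h4 x hx.2

/-- elements of prime order `r > f` centralising `t` -/
theorem mem_of_prime [IsSimpleGroup T] (h : IF A Γ) (hna : ∃ a b : T, a * b ≠ b * a) {t : T} (ht : t ∈ A)
    (ht2 : orderOf t = 2) {y : T} (hy : y * t = t * y) {r : ℕ} (hr : r.Prime) (hyr : y ^ r = 1)
    (hf : fx A (MulAut.conj t) < r) : y ∈ A := by
  have h1 := (rel_le h hna ht ht2 (W := zpowers y) (by
    rintro _ ⟨k, rfl⟩
    exact ((show Commute y t from hy).zpow_left k).eq)).trans_lt hf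
  have h2 : A.relIndex (zpowers y) ∣ r := by
    have h3 : A.relIndex (zpowers y) ∣ Nat.card (zpowers y) := Subgroup.relIndex_dvd_card A (zpowers y)
    rw [Nat.card_zpowers] at h3
    exact h3.trans (orderOf_dvd_of_pow_eq_one hyr)
  rcases (Nat.dvd_prime hr).1 h2 with h3 | h3
  · exact (Subgroup.relIndex_eq_one.1 h3) (mem_zpowers y)
  · omega

/-- the end: too many conjugates of `t` in `A` -/
theorem fin_kill [IsSimpleGroup T] (h : IF A Γ) (hna : ∃ a b : T, a * b ≠ b * a) {t : T} (ht : t ∈ A)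
    (ht2 : orderOf t = 2) {D : Subgroup T} (hD : D ≤ A) {f K N : ℕ} (hf : fx A (MulAut.conj t) ≤ f)
    (hK : K ≤ (cls D t).ncard) (hN : (centralizer ({t} : Set T)).index ≤ N) (hlt : f * N < 730 * K) : False := by
  have h1 := IF.fix_formula' h ((h.conj t).2 ht)
  rw [(IF.E2' h hna ht ht2).2.1] at h1
  have h2 : (MulAut.conj : T → MulAut T) '' cls D t ⊆ icl (MulAut.conj t) ∩ (Γ : Set (MulAut T)) := by
    rintro _ ⟨_, ⟨u, hu, rfl⟩, rfl⟩
    refine ⟨⟨u, by rw [map_mul, map_mul, map_inv]⟩, (h.conj _).2 ?_⟩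
    exact A.mul_mem (A.mul_mem (hD hu) ht) (A.inv_mem (hD hu))
  have h3 : K ≤ (icl (MulAut.conj t) ∩ (Γ : Set (MulAut T))).ncard := by
    calc K ≤ (cls D t).ncard := hK
      _ = ((MulAut.conj : T → MulAut T) '' cls D t).ncard := (Set.ncard_image_of_injective _ (conj_inj' hna)).symm
      _ ≤ _ := Set.ncard_le_ncard h2 (Set.toFinite _)
  have h4 : 730 * K ≤ f * N := by
    calc 730 * K ≤ A.index * (icl (MulAut.conj t) ∩ (Γ : Set (MulAut T))).ncard := Nat.mul_le_mul h.big h3
      _ = fx A (MulAut.conj t) * (centralizer ({t} : Set T)).index := h1.symm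
      _ ≤ f * N := Nat.mul_le_mul hf hN
  omega

/-- transport along an automorphism: `α t = t'` -/
theorem map_aut (h : IF A Γ) (α : T ≃* T) {t t' : T} (ht : t ∈ A) (hα : α t = t') :
    ∃ (A' : Subgroup T) (Γ' : Subgroup (MulAut T)), IF A' Γ' ∧ t' ∈ A' ∧
      fx A' (MulAut.conj t') = fx A (MulAut.conj t) := by
  refine ⟨_, _, h.map α, ⟨t, ht, hα⟩, ?_⟩
  have h1 : MulAut.conj t' = MulAut.congr α (MulAut.conj t) := by
    ext x
    obtain ⟨y, rfl⟩ := α.surjective x
    rw [congr_apply, MulAut.conj_apply, MulAut.conj_apply, map_mul, map_mul, map_inv, hα]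
  rw [h1]
  exact fx_map α _

end eng

/-! ### exact class sizes from a cover -/

section exact

variable {n : ℕ}

/-- **Exactness.** If bounds for the centralisers of pairwise non-conjugate elements already give the order of `N`,
then they give the class sizes. -/
theorem cls_exact {A N : Subgroup (Perm (Fin n))} (hnA : ∀ a ∈ A, ∀ x ∈ N, a * x * a⁻¹ ∈ N) {ι : Type} [Fintype ι]
    (r : ι → Perm (Fin n)) (hr : ∀ i, r i ∈ N) (c : ι → ℕ)
    (hc : ∀ i, Nat.card ↥(A ⊓ Subgroup.centralizer {r i}) ≤ c i)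
    (hne : ∀ i j, i ≠ j → ∀ a ∈ A, a * r i * a⁻¹ ≠ r j) (hsum : Nat.card N ≤ ∑ i, Nat.card A / c i) (i : ι) :
    (cls A (r i)).ncard ≤ Nat.card A / c i := by
  classical
  let cl : ι → Set (Perm (Fin n)) := fun i => cls A (r i)
  have hcl : ∀ i, Nat.card A / c i ≤ (cl i).ncard := by
    intro i
    have h1 : Nat.card A = Nat.card ↥(A ⊓ Subgroup.centralizer {r i}) * (cl i).ncard := by
      let C : Subgroup A := (A ⊓ Subgroup.centralizer {r i}).subgroupOf A
      have e1 : Nat.card C = Nat.card ↥(A ⊓ Subgroup.centralizer {r i}) :=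
        Nat.card_congr (Subgroup.subgroupOfEquivOfLe inf_le_left).toEquiv
      have e2 : Nat.card (A ⧸ C) = (cl i).ncard := by
        rw [← Nat.card_coe_set_eq]
        refine Nat.card_congr (Equiv.ofBijective (fun q : A ⧸ C => Quotient.liftOn' q
          (fun a => (⟨(a : Perm (Fin n)) * r i * (a : Perm (Fin n))⁻¹, a, a.2, rfl⟩ : cl i)) ?_) ⟨?_, ?_⟩)
        · intro a b hab
          rw [QuotientGroup.leftRel_apply] at hab
          have h2 := (Subgroup.mem_inf.1 (Subgroup.mem_subgroupOf.1 hab)).2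
          rw [Subgroup.mem_centralizer_singleton_iff] at h2
          apply Subtype.ext
          change ((a : Perm (Fin n))⁻¹ * b) * r i = r i * ((a : Perm (Fin n))⁻¹ * b) at h2
          change (a : Perm (Fin n)) * r i * (a : Perm (Fin n))⁻¹ = b * r i * (b : Perm (Fin n))⁻¹
          calc (a : Perm (Fin n)) * r i * (a : Perm (Fin n))⁻¹ =
              a * (r i * ((a : Perm (Fin n))⁻¹ * b)) * (b : Perm (Fin n))⁻¹ := by group
            _ = a * ((a : Perm (Fin n))⁻¹ * b * r i) * (b : Perm (Fin n))⁻¹ := by rw [h2]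
            _ = b * r i * (b : Perm (Fin n))⁻¹ := by group
        · intro q q' h
          induction q using Quotient.inductionOn' with
          | h a =>
            induction q' using Quotient.inductionOn' with
            | h b =>
              have h2 : (a : Perm (Fin n)) * r i * (a : Perm (Fin n))⁻¹ = b * r i * (b : Perm (Fin n))⁻¹ :=
                congrArg Subtype.val h
              refine Quotient.sound' ?_
              rw [QuotientGroup.leftRel_apply]
              refine Subgroup.mem_subgroupOf.2 (Subgroup.mem_inf.2 ⟨(a⁻¹ * b).2, ?_⟩)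
              rw [Subgroup.mem_centralizer_singleton_iff]
              change ((a : Perm (Fin n))⁻¹ * b) * r i = r i * ((a : Perm (Fin n))⁻¹ * b)
              calc ((a : Perm (Fin n))⁻¹ * b) * r i =
                  (a : Perm (Fin n))⁻¹ * (b * r i * (b : Perm (Fin n))⁻¹) * b := by group
                _ = (a : Perm (Fin n))⁻¹ * (a * r i * (a : Perm (Fin n))⁻¹) * b := by rw [h2]
                _ = r i * ((a : Perm (Fin n))⁻¹ * b) := by group
        · rintro ⟨x, a, ha, rfl⟩
          exact ⟨Quotient.mk'' ⟨a, ha⟩, rfl⟩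
      rw [← e1, ← e2, mul_comm]
      exact Subgroup.card_eq_card_quotient_mul_card_subgroup C
    have h0 : 0 < Nat.card ↥(A ⊓ Subgroup.centralizer {r i}) := Nat.card_pos
    calc Nat.card A / c i ≤ Nat.card A / Nat.card ↥(A ⊓ Subgroup.centralizer {r i}) := Nat.div_le_div_left (hc i) h0
      _ = (cl i).ncard := by
        rw [h1, Nat.mul_div_cancel_left _ h0]
  have hdis : Set.PairwiseDisjoint (Set.univ : Set ι) cl := by
    intro i _ j _ hij
    rw [Function.onFun, Set.disjoint_left]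
    rintro x ⟨a, ha, rfl⟩ ⟨b, hb, h⟩
    refine hne i j hij (b⁻¹ * a) (A.mul_mem (A.inv_mem hb) ha) ?_
    calc b⁻¹ * a * r i * (b⁻¹ * a)⁻¹ = b⁻¹ * (a * r i * a⁻¹) * b := by group
      _ = r j := by rw [h]; group
  have hun : (⋃ i, cl i) ⊆ (N : Set (Perm (Fin n))) := by
    intro x hx
    obtain ⟨i, a, ha, rfl⟩ := Set.mem_iUnion.1 hx
    exact hnA a ha _ (hr i)
  have hcard : (⋃ i, cl i).ncard = ∑ i, (cl i).ncard := by
    have h := Set.ncard_iUnion_of_finite (s := cl) (fun i => Set.toFinite _)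
      (fun i j hij => hdis (Set.mem_univ i) (Set.mem_univ j) hij)
    rw [h, finsum_eq_sum_of_fintype]
  have hle : ∑ i, (cl i).ncard ≤ ∑ i, Nat.card A / c i := by
    rw [← hcard]
    exact (Set.ncard_le_ncard hun (Set.toFinite _)).trans hsum
  by_contra hlt
  rw [not_le] at hlt
  have h1 : ∑ i, Nat.card A / c i < ∑ i, (cl i).ncard :=
    Finset.sum_lt_sum (fun j _ => hcl j) ⟨i, Finset.mem_univ i, hlt⟩
  omega

/-- the same in the form of `cover_D` -/
theorem cls_exact_D {K w : ℕ} {row : ℕ → ℕ} {A N : Subgroup (Perm (Fin n))} (hn : n ≤ 2 ^ K) (hA : A ≤ Aut n row)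
    (hnA : ∀ a ∈ A, ∀ x ∈ N, a * x * a⁻¹ ∈ N) (D : List (ℕ × ℕ × List ℕ))
    (hr : ∀ x ∈ D, ∃ g ∈ N, ∀ p : Fin n, (g p : ℕ) = lk w x.1 p)
    (hc : ∀ x ∈ D, ∃ l L, chkB n K row w x.1 l L x.2.1 = true)
    (key : List (Bool × ℕ)) (hs : ∀ x ∈ D, chkSig n K row w x.1 key x.2.2 = true)
    (hl : ∀ x ∈ D, x.2.2.length = key.length) (hnd : (D.map fun x => x.2.2).Nodup)
    (hsum : Nat.card N ≤ (D.map fun x => Nat.card A / (x.2.1 + 1)).sum) {x : ℕ × ℕ × List ℕ} (hx : x ∈ D)
    {g : Perm (Fin n)} (hg : ∀ p : Fin n, (g p : ℕ) = lk w x.1 p) :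
    (cls A g).ncard ≤ Nat.card A / (x.2.1 + 1) := by
  have hmem : ∀ i : Fin D.length, D[i.1] ∈ D := fun i => List.getElem_mem i.2
  have hinj : Function.Injective (fun i : Fin D.length => (D[i.1]).2.2) := by
    intro i j hij
    have h1 := (List.nodup_iff_injective_get.1 hnd)
    have h2 : (⟨i.1, by rw [List.length_map]; exact i.2⟩ : Fin (D.map fun x => x.2.2).length) =
        ⟨j.1, by rw [List.length_map]; exact j.2⟩ := by
      apply h1
      simpa using hij
    have h3 := congrArg Fin.val h2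
    exact Fin.ext h3
  have hsum' : Nat.card N ≤ ∑ i : Fin D.length, Nat.card A / ((D[i.1]).2.1 + 1) := by
    rw [Fin.sum_univ_fun_getElem D (fun x => Nat.card A / (x.2.1 + 1))]
    exact hsum
  choose r hrN hrp using fun i : Fin D.length => hr _ (hmem i)
  obtain ⟨i, hi, hix⟩ := List.getElem_of_mem hx
  have h := cls_exact hnA r hrN (fun i => (D[i.1]).2.1 + 1) (fun i => by
    obtain ⟨l, L, h1⟩ := hc _ (hmem i)
    refine card_le_bound hn (hrp i) h1 (inf_le_left.trans hA) fun σ hσ p => ?_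
    have h2 := Subgroup.mem_centralizer_singleton_iff.1 (Subgroup.mem_inf.1 hσ).2
    exact congrArg (fun τ : Perm (Fin n) => τ p) h2) (fun i j hij b hb h1 => by
      apply hij
      apply hinj
      show (D[i.1]).2.2 = (D[j.1]).2.2
      rw [← sig_of_chk hn (hrp i) (hs _ (hmem i)) (hl _ (hmem i)), ← sig_of_chk hn (hrp j) (hs _ (hmem j)) (hl _ (hmem j))]
      refine List.map_congr_left fun k _ => ?_
      rw [← h1, pwc_conj (hA hb)]) hsum' ⟨i, hi⟩
  have h2 : r ⟨i, hi⟩ = g := by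
    ext p
    rw [hrp, hg]
    show lk w (D[i]).1 p = _
    rw [hix]
  rw [h2] at h
  have h3 : D[(⟨i, hi⟩ : Fin D.length).1] = x := hix
  rw [h3] at h
  exact h

/-- from the model to the group -/
theorem index_le_of_cls {T : Type*} [Group T] [Finite T] {ψ : T →* Perm (Fin n)} (hψ : Function.Injective ψ)
    {A : Subgroup (Perm (Fin n))} (hA : ψ.range ≤ A) {s : T} {N : ℕ} (h : (cls A (ψ s)).ncard ≤ N) :
    (centralizer ({s} : Set T)).index ≤ N := by
  classical
  have h1 : (centralizer ({s} : Set T)).index = (cls (⊤ : Subgroup T) s).ncard := by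
    have h2 : cls (⊤ : Subgroup T) s = MulAction.orbit (ConjAct T) s := by
      ext x
      constructor
      · rintro ⟨u, -, rfl⟩
        exact ⟨ConjAct.toConjAct u, rfl⟩
      · rintro ⟨u, rfl⟩
        exact ⟨ConjAct.ofConjAct u, mem_top _, rfl⟩
    rw [h2]
    have h3 := MulAction.index_stabilizer (ConjAct T) s
    rw [ConjAct.stabilizer_eq_centralizer] at h3
    rw [← h3]
    rfl
  rw [h1]
  have h4 : ψ '' cls (⊤ : Subgroup T) s ⊆ cls A (ψ s) := by
    rintro _ ⟨_, ⟨u, -, rfl⟩, rfl⟩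
    exact ⟨ψ u, hA ⟨u, rfl⟩, by rw [map_mul, map_mul, map_inv]⟩
  calc (cls (⊤ : Subgroup T) s).ncard = (ψ '' cls (⊤ : Subgroup T) s).ncard :=
        (Set.ncard_image_of_injective _ hψ).symm
    _ ≤ (cls A (ψ s)).ncard := Set.ncard_le_ncard h4 (Set.toFinite _)
    _ ≤ N := h

/-- conjugate elements have the same class -/
theorem cls_conj {G : Type*} [Group G] {A : Subgroup G} {b s : G} (hb : b ∈ A) : cls A (b * s * b⁻¹) = cls A s := by
  ext x
  constructor
  · rintro ⟨u, hu, rfl⟩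
    exact ⟨u * b, A.mul_mem hu hb, by group⟩
  · rintro ⟨u, hu, rfl⟩
    exact ⟨u * b⁻¹, A.mul_mem hu (A.inv_mem hb), by group⟩

end exact

end Cfsg.Agent.H895.IFT
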